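import Cfsg.Agent.SuzukiClassProd.Basic

/-!
The square of a class of elements of order above two covers the group of the ovoid.
-/

set_option autoImplicit false

open scoped Matrix

namespace CfsgLib.SuzukiClassProd

open CfsgLib.Suzuki CfsgLib.BinarySuzuki

section Covers

variable {G : Type*} [Group G]

/-- `g` is a product of two conjugates of `x`. -/
def Covers (x g : G) : Prop := ∃ u v : G, g = u * x * u⁻¹ * (v * x * v⁻¹)

theorem Covers.of_prod {x y z g : G} (hy : IsConj x y) (hz : IsConj x z) (h : g = y * z) :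
    Covers x g := by
  obtain ⟨u, rfl⟩ := isConj_iff.1 hy
  obtain ⟨v, rfl⟩ := isConj_iff.1 hz
  exact ⟨u, v, h⟩

theorem Covers.conj {x g g' : G} (h : Covers x g) (hg : IsConj g g') : Covers x g' := by
  obtain ⟨u, v, rfl⟩ := h
  obtain ⟨c, rfl⟩ := isConj_iff.1 hg
  exact ⟨c * u, c * v, by group⟩

theorem Covers.of_isConj {x x' g : G} (h : Covers x g) (hx : IsConj x x') : Covers x' g := by
  obtain ⟨u, v, rfl⟩ := h
  obtain ⟨c, rfl⟩ := isConj_iff.1 hx
  exact ⟨u * c⁻¹, v * c⁻¹, by group⟩

theorem Covers.inv {x g : G} (h : Covers x g) : Covers x⁻¹ g⁻¹ := by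
  obtain ⟨u, v, rfl⟩ := h
  exact ⟨v, u, by group⟩

theorem Covers.inv_of_real {x g : G} (h : Covers x g) (hx : IsConj x x⁻¹) : Covers x g⁻¹ :=
  h.inv.of_isConj hx.symm

end Covers

variable {F : Type*} [Field F] [Fintype F] [CharP F 2] {m : ℕ}

theorem trM_first (hT : TitsEndo (theta F m)) (a k : F) :
    theta F m a + ovF (theta F m) a (a * theta F m a * k) =
      theta F m a * (1 + a ^ 2 * (1 + k + theta F m k)) := by
  simp only [ovF, map_mul, hT.sq]; ring

/-- Real classes: semisimple targets. -/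
theorem covers_rElt_rElt (hm : 1 ≤ m) (hF : Fintype.card F = 2 ^ (2 * m + 1)) {ε δ : F}
    (hε : ε ≠ 0) (hδ : δ ≠ 0) :
    Covers (rElt (titsEndo_theta hm hF) ε) (rElt (titsEndo_theta hm hF) δ) := by
  set hT := titsEndo_theta hm hF
  obtain ⟨G, hG⟩ := sq_surjective (theta F m δ)
  have hG' : G ^ 2 = theta F m δ := hG
  have hG0 : G ≠ 0 := fun h => by
    rw [h, zero_pow two_ne_zero, eq_comm, map_eq_zero] at hG'; exact hδ hG'
  obtain ⟨p, -, hp⟩ := exists_level hT hG0
  set a := (p 0).1; set b := (p 0).2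
  have hf : ovF (theta F m) a b = G := hp 0
  obtain ⟨c, d, t, ht, he⟩ := exists_wElt_conj hT (a := a) (b := b) (by rw [hf]; exact hG0)
  set u' := uElt hT (b / ovF (theta F m) a b) (a / ovF (theta F m) a b)
  set r := wElt hT * uElt hT 0 ε * wElt hT
  set h := wElt hT * uElt hT a b * wElt hT
  have hw := wElt_inv hT
  have hww : ∀ z, wElt hT * (wElt hT * z) = z := fun z => by rw [← mul_assoc, wElt_mul_self, one_mul]
  have hcomm : h * r = r * h := by
    simp only [h, r, mul_assoc, hww]
    rw [← mul_assoc (uElt hT a b), uElt_central, mul_assoc]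
  have hrr : r * r = 1 := by
    simp only [r, mul_assoc, hww]
    rw [← mul_assoc (uElt hT 0 ε), uElt_central_sq, one_mul, wElt_mul_self]
  have hz : IsConj (rElt hT ε) (r * (h * uElt hT 0 1 * h⁻¹)) := isConj_iff.2 ⟨h * uElt hT 0 1, by
    show h * uElt hT 0 1 * (uElt hT 0 1 * r) * (h * uElt hT 0 1)⁻¹ = _
    rw [mul_inv_rev, uElt_self_inv, show h * uElt hT 0 1 * (uElt hT 0 1 * r) * (uElt hT 0 1 * h⁻¹) =
      h * ((uElt hT 0 1 * uElt hT 0 1) * r) * uElt hT 0 1 * h⁻¹ by group, uElt_central_sq, one_mul,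
      hcomm]
    group⟩
  have hscale : h * uElt hT 0 1 * h⁻¹ =
      u' * (wElt hT * uElt hT 0 (theta F m G) * wElt hT) * u'⁻¹ := by
    have h1 := conj_centre hT c d t 1
    rw [show (t : F) ^ 2 * theta F m t = theta F m G by rw [← hf, ← ht, map_mul, hT.sq, mul_comm],
      mul_one] at h1
    rw [← h1]
    rw [he]
    simp [mul_assoc, mul_inv_rev, hw]
  have hprod : trM (uElt hT 0 1 * (h * uElt hT 0 1 * h⁻¹)) = theta F m δ := by
    rw [hscale, show uElt hT 0 1 * (u' * (wElt hT * uElt hT 0 (theta F m G) * wElt hT) * u'⁻¹) =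
      uElt hT 0 1 * u' * (wElt hT * uElt hT 0 (theta F m G) * wElt hT) * u'⁻¹ by group,
      ← uElt_central, mul_assoc u', trM_conj, trM_involution_pair, hT.sq, hG']
  refine Covers.conj (g := uElt hT 0 1 * (h * uElt hT 0 1 * h⁻¹)) (Covers.of_prod (IsConj.refl _) hz ?_)
    (isConj_of_trM hm hF hδ hprod).symm
  show _ = uElt hT 0 1 * r * (r * (h * uElt hT 0 1 * h⁻¹))
  rw [mul_assoc (uElt hT 0 1) r, ← mul_assoc r r, hrr, one_mul]

/-- Real classes: translations. -/
theorem covers_rElt_uElt (hm : 1 ≤ m) (hF : Fintype.card F = 2 ^ (2 * m + 1)) {ε : F} (hε : ε ≠ 0) :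
    Covers (rElt (titsEndo_theta hm hF) ε) (uElt (titsEndo_theta hm hF) 0 1) ∧
      Covers (rElt (titsEndo_theta hm hF) ε) (uElt (titsEndo_theta hm hF) 1 0) := by
  set hT := titsEndo_theta hm hF
  have h2 : (2 : F) = 0 := two_eq_zero
  set c := theta F m ε
  have hc : c ≠ 0 := (map_ne_zero _).2 hε
  obtain ⟨w, hw0, hw⟩ := exists_not_inK hT hc
  set a := w⁻¹ with ha
  have ha0 : a ≠ 0 := inv_ne_zero hw0
  have hd : InK (w + c * (w ^ 2 * theta F m w) + 1 + (w ^ 2 + w)) :=
    ((inK_or hT _).resolve_left hw).add ⟨w, rfl⟩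
  obtain ⟨k, hk⟩ := exists_theta_of_inK hT hd
  set b := a * theta F m a * k with hb
  have hab : trM (wElt hT * uElt hT a b) = c := by
    rw [trM_wElt_uElt, hb, trM_first hT, show 1 + k + theta F m k = c * (w ^ 2 * theta F m w) + w ^ 2 by
      linear_combination hk + (w + 1) * h2, ha, map_inv₀]
    have : theta F m w ≠ 0 := (map_ne_zero _).2 hw0
    field_simp
    linear_combination h2
  have hab' : trM (wElt hT * uElt hT a (b + a * theta F m a)) = c := by
    rw [trM_wElt_uElt] at hab ⊢
    refine Eq.trans ?_ hab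
    simp only [ovF, map_add, map_mul, hT.sq]
    linear_combination (a ^ 2 * theta F m a) * h2
  obtain ⟨B, hB⟩ := hT.surj c
  have h0B : trM (wElt hT * uElt hT 0 B) = c := by
    rw [trM_wElt_uElt]; simp [ovF, hB]
  have cls : ∀ {z : grp (theta F m)}, trM z = c → IsConj (rElt hT ε) z := fun h =>
    isConj_of_trM hm hF hε h
  have key : ∀ {z z' : grp (theta F m)}, trM z = c → trM z' = c → Covers (rElt hT ε) (z⁻¹ * z') :=
    fun {z z'} h h' => Covers.of_prod
      ((isConj_rElt_inv hT ε).trans (isConj_iff.2 (by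
        obtain ⟨u, hu⟩ := isConj_iff.1 (cls h)
        exact ⟨u, by rw [← hu]; group⟩))) (cls h') rfl
  have cancel : ∀ p q : grp (theta F m), (wElt hT * p)⁻¹ * (wElt hT * q) = p⁻¹ * q := fun p q => by group
  constructor
  · have h := key hab hab'
    rw [cancel, uElt_inv, uElt_mul] at h
    refine h.conj (IsConj.symm ?_)
    have e1 : -a + a = (0 : F) := by ring
    have e2 : -b + theta F m a * a + (b + a * theta F m a) + theta F m (-a) * a = a * theta F m a := by
      rw [map_neg]; ring
    rw [e1, e2]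
    exact isConj_uElt_central hT (mul_ne_zero ha0 ((map_ne_zero _).2 ha0))
  · have h := key h0B hab
    rw [cancel, uElt_self_inv, uElt_mul] at h
    rcases isConj_uElt_four hT (B + b + theta F m 0 * a) (a := 0 + a) (by simpa using ha0) with h1 | h1
    · exact h.conj h1.symm
    · have := (h.conj h1.symm).inv_of_real (isConj_rElt_inv hT ε)
      rwa [inv_inv] at this

/-- The class of order four: semisimple targets. -/
theorem covers_four_rElt (hm : 1 ≤ m) (hF : Fintype.card F = 2 ^ (2 * m + 1)) {δ : F} (hδ : δ ≠ 0) :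
    Covers (uElt (titsEndo_theta hm hF) 1 0) (rElt (titsEndo_theta hm hF) δ) := by
  set hT := titsEndo_theta hm hF
  have h2 : (2 : F) = 0 := two_eq_zero
  set c := theta F m δ
  have hc : c ≠ 0 := (map_ne_zero _).2 hδ
  obtain ⟨w, hw0, hw⟩ := exists_not_inK hT hc
  set s := w⁻¹ with hs
  have hs0 : s ≠ 0 := inv_ne_zero hw0
  have hθs : theta F m s ≠ 0 := (map_ne_zero _).2 hs0
  obtain ⟨z, hz⟩ := sq_surjective (c / theta F m s)
  have hz' : z ^ 2 = c / theta F m s := hz
  set N := (1 + z) * w with hN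
  have hd : InK (N + 1) := by
    refine inK_of_sq ?_
    have e : (N + 1) ^ 2 = w + c * (w ^ 2 * theta F m w) + 1 + (w ^ 2 + w) := by
      have e1 : z ^ 2 = c * theta F m w := by rw [hz', hs, map_inv₀, div_inv_eq_mul]
      rw [hN]
      linear_combination w ^ 2 * e1 + ((1 + z) * w + z * w ^ 2 - w) * h2
    rw [e]
    exact ((inK_or hT _).resolve_left hw).add ⟨w, rfl⟩
  obtain ⟨r, hr⟩ := hd
  set k := theta F m r + r with hk
  have hkk : k + theta F m k = N + 1 := by
    rw [hk, map_add, hT.sq, ← hr]; linear_combination theta F m r * h2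
  have hkK : InK k := inK_theta_add hT r
  refine Covers.conj (g := uElt hT 1 k * (wElt hT * uElt hT s (s * theta F m s * k) * wElt hT))
    (Covers.of_prod (isConj_uElt_one hT one_ne_zero 0 (by simpa using hkK))
      (IsConj.trans (isConj_uElt_one hT hs0 0 (by
        rw [mul_div_cancel_left₀ _ (mul_ne_zero hs0 hθs), add_zero]; exact hkK))
        (isConj_iff.2 ⟨wElt hT, by rw [wElt_inv]⟩)) rfl)
    (isConj_of_trM hm hF hδ ?_).symm
  have hzs : theta F m s * z ^ 2 = c := by rw [hz', mul_div_cancel₀ _ hθs]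
  have hsN : s * N = 1 + z := by rw [hN, hs, mul_left_comm, inv_mul_cancel₀ hw0, mul_one]
  rw [trM_pair]
  calc _ = theta F m s * (1 + s ^ 2 * (1 + k + theta F m k) ^ 2) := by
        simp only [ovF, map_one, map_mul, hT.sq]
        linear_combination (s * theta F m s * (k ^ 2 + k)) * h2
    _ = theta F m s * (1 + (s * N) ^ 2) := by
        rw [show 1 + k + theta F m k = N by linear_combination hkk + h2]; ring
    _ = c := by rw [hsN, ← hzs]; linear_combination (theta F m s * (1 + z)) * h2

/-- The class of order four: translations. -/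
theorem covers_four_uElt (hm : 1 ≤ m) (hF : Fintype.card F = 2 ^ (2 * m + 1)) {a b : F}
    (h : ¬(a = 0 ∧ b = 0)) :
    Covers (uElt (titsEndo_theta hm hF) 1 0) (uElt (titsEndo_theta hm hF) a b) := by
  set hT := titsEndo_theta hm hF
  have h2 : (2 : F) = 0 := two_eq_zero
  by_cases ha : a = 0
  · subst ha
    have hb : b ≠ 0 := fun e => h ⟨rfl, e⟩
    refine Covers.conj (Covers.of_prod (IsConj.refl _) (IsConj.refl _) rfl) ?_
    rw [uElt_mul, map_one, one_mul, CharTwo.add_self_eq_zero, zero_add, zero_add]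
    exact isConj_uElt_central hT hb
  · obtain ⟨s, hs0, hs1⟩ := hT.big
    have hA : (1 : F) + s ≠ 0 := fun e => hs1 (CharTwo.add_eq_zero.1 e).symm
    have hθA : theta F m (1 + s) ≠ 0 := (map_ne_zero _).2 hA
    set D := (1 + s) * theta F m (1 + s) with hD
    have hD1 : D⁻¹ ≠ 1 := fun e => hs0 <| by
      have e1 : D = 1 := inv_eq_one.1 e
      have e2 : theta F m (1 + s) * (1 + s) ^ 2 = 1 := by
        have := congrArg (theta F m) e1
        rwa [hD, map_mul, hT.sq, map_one] at this
      rw [hD] at e1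
      linear_combination e2 - (1 + s) * e1
    obtain ⟨k0, hk0, hk0'⟩ := exists_inK_mul hT (inv_ne_zero (mul_ne_zero hA hθA)) hD1
    have prodK : ∀ k, InK k → Covers (uElt hT 1 0) (uElt hT (1 + s) (k + s)) := fun k hk =>
      Covers.of_prod (isConj_uElt_one hT one_ne_zero 0 (by simpa using hk))
        (isConj_uElt_one hT hs0 0 (by simpa using (inK_zero : InK (0 : F))) (b := 0))
        (by rw [uElt_mul]; simp)
    -- both classes of translations of order four are reached
    obtain ⟨k, hk, hkK⟩ : ∃ k, InK k ∧ (InK ((k + s) / D + b / (a * theta F m a))) := by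
      rcases inK_or hT ((0 + s) / D + b / (a * theta F m a)) with h1 | h1
      · exact ⟨0, inK_zero, h1⟩
      · refine ⟨k0, hk0, ?_⟩
        have h3 := ((inK_or hT (k0 * D⁻¹)).resolve_left hk0').add h1
        convert h3 using 1
        field_simp
        linear_combination -a * h2
    refine (prodK k hk).conj ?_
    rcases inK_or hT (b / (a * theta F m a)) with h1 | h1
    · refine (isConj_uElt_one hT hA 0 ?_).symm.trans
        (isConj_uElt_one hT ha 0 (by simpa using h1))
      have := hkK.add h1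
      rw [add_assoc, CharTwo.add_self_eq_zero] at this
      exact this
    · refine (isConj_uElt_one hT hA 1 ?_).symm.trans (isConj_uElt_one hT ha 1 h1)
      have := hkK.add h1
      rw [← add_assoc, add_assoc ((k + s) / D), CharTwo.add_self_eq_zero, add_zero] at this
      exact this

theorem covers_all (hm : 1 ≤ m) (hF : Fintype.card F = 2 ^ (2 * m + 1)) (x g : grp (theta F m))
    (hx : 2 < orderOf x) (hg : g ≠ 1) : Covers x g := by
  set hT := titsEndo_theta hm hF
  have hx1 : x ≠ 1 := fun e => by rw [e, orderOf_one] at hx; omega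
  by_cases hxU : ∀ w, w⁻¹ * x * w ∉ uGrp hT
  · obtain ⟨ε, hε, hxc⟩ := exists_real_form hm hF hx1 hxU
    refine Covers.of_isConj ?_ hxc
    by_cases hgU : ∀ w, w⁻¹ * g * w ∉ uGrp hT
    · obtain ⟨δ, hδ, hgc⟩ := exists_real_form hm hF hg hgU
      exact (covers_rElt_rElt hm hF hε hδ).conj hgc
    · push Not at hgU
      obtain ⟨w, a, b, hab⟩ := hgU
      have hgc : IsConj (uElt hT a b) g := isConj_iff.2 ⟨w, by rw [← hab]; group⟩
      refine Covers.conj ?_ hgc
      obtain ⟨c1, c2⟩ := covers_rElt_uElt hm hF hε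
      by_cases ha : a = 0
      · subst ha
        refine c1.conj (isConj_uElt_central hT fun e => hg ?_)
        rw [e, uElt_zero] at hgc
        obtain ⟨u, hu⟩ := isConj_iff.1 hgc
        rw [← hu]; group
      · rcases isConj_uElt_four hT b ha with h1 | h1
        · exact c2.conj h1
        · exact (c2.inv_of_real (isConj_rElt_inv hT ε)).conj h1
  · push Not at hxU
    obtain ⟨w, a, b, hab⟩ := hxU
    have hxc : IsConj (uElt hT a b) x := isConj_iff.2 ⟨w, by rw [← hab]; group⟩
    have ha : a ≠ 0 := fun e => by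
      subst e
      have h1 : uElt hT 0 b ^ 2 = 1 := by rw [pow_two]; exact uElt_central_sq hT b
      have h2 : orderOf x ≤ 2 := by
        obtain ⟨u, hu⟩ := isConj_iff.1 hxc
        rw [← hu, show u * uElt hT 0 b * u⁻¹ = MulAut.conj u (uElt hT 0 b) by simp, MulEquiv.orderOf_eq]
        exact Nat.le_of_dvd two_pos (orderOf_dvd_of_pow_eq_one h1)
      omega
    have key : ∀ g : grp (theta F m), g ≠ 1 → Covers (uElt hT 1 0) g := by
      intro g hg
      by_cases hgU : ∀ w, w⁻¹ * g * w ∉ uGrp hT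
      · obtain ⟨δ, hδ, hgc⟩ := exists_real_form hm hF hg hgU
        exact (covers_four_rElt hm hF hδ).conj hgc
      · push Not at hgU
        obtain ⟨v, p, q, hpq⟩ := hgU
        refine (covers_four_uElt hm hF fun e => hg ?_).conj (isConj_iff.2 ⟨v, by rw [← hpq]; group⟩)
        rw [e.1, e.2, uElt_zero] at hpq
        calc g = v * (v⁻¹ * g * v) * v⁻¹ := by group
          _ = 1 := by rw [hpq]; group
    refine Covers.of_isConj ?_ hxc
    rcases isConj_uElt_four hT b ha with h1 | h1
    · exact (key g hg).of_isConj h1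
    · have := (key g⁻¹ (inv_ne_one.2 hg)).inv
      rw [inv_inv] at this
      exact this.of_isConj h1

theorem covers_of_equiv (hm : 1 ≤ m) (hF : Fintype.card F = 2 ^ (2 * m + 1)) {G : Type*} [Group G]
    (ψ : G ≃* grp (theta F m)) (x : G) (hx : 2 < orderOf x) (g : G) (hg : g ≠ 1) : Covers x g := by
  obtain ⟨u, v, h⟩ := covers_all hm hF (ψ x) (ψ g) (by rwa [MulEquiv.orderOf_eq])
    (fun e => hg (ψ.injective (e.trans (map_one ψ).symm)))
  exact ⟨ψ.symm u, ψ.symm v, ψ.injective (by simpa using h)⟩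

end CfsgLib.SuzukiClassProd
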