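import Cfsg.Agent.BinarySuzuki.Torus

/-!
Traces, normal forms of the classes of the group of the ovoid, and the hyperplane of elements `r² + r`.
-/

set_option autoImplicit false

open scoped Matrix

namespace CfsgLib.SuzukiClassProd

open CfsgLib.Suzuki CfsgLib.BinarySuzuki

variable {F : Type*} [Field F] {θ : F →+* F} [CharP F 2] [Finite F]

/-- The elements `r² + r`. -/
def InK (d : F) : Prop := ∃ r : F, r ^ 2 + r = d

theorem InK.add {d d' : F} (h : InK d) (h' : InK d') : InK (d + d') := by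
  obtain ⟨r, rfl⟩ := h
  obtain ⟨r', rfl⟩ := h'
  exact ⟨r + r', by linear_combination (r * r') * (two_eq_zero : (2 : F) = 0)⟩

theorem inK_theta_add (hT : TitsEndo θ) (e : F) : InK (θ e + e) := by
  have h2 : (2 : F) = 0 := two_eq_zero
  obtain ⟨r, hr | hr⟩ := exists_theta_add_self e hT <;> refine ⟨r, ?_⟩
  · rw [← hr, map_add, hT.sq]; linear_combination -(θ r) * h2
  · rw [show e = θ r + r + 1 by linear_combination -hr - h2,
      map_add, map_add, hT.sq, map_one]
    linear_combination -(θ r + 1) * h2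

theorem exists_theta_of_inK (hT : TitsEndo θ) {d : F} (h : InK d) : ∃ e, θ e + e = d := by
  obtain ⟨r, rfl⟩ := h
  exact ⟨θ r + r, by rw [map_add, hT.sq]; linear_combination θ r * (two_eq_zero : (2 : F) = 0)⟩

theorem not_inK_one (hT : TitsEndo θ) : ¬ InK (1 : F) := by
  intro h
  have h2 : (2 : F) = 0 := two_eq_zero
  obtain ⟨e, he⟩ := exists_theta_of_inK hT h
  have h1 : θ (θ e) + θ e = 1 := by rw [← map_add, he, map_one]
  rw [hT.sq] at h1
  have h3 : e * (e + 1) = 0 := by linear_combination h1 - he + e * h2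
  rcases mul_eq_zero.1 h3 with rfl | h4
  · simp at he
  · obtain rfl : e = 1 := CharTwo.add_eq_zero.1 h4
    rw [map_one, CharTwo.add_self_eq_zero] at he
    exact zero_ne_one he

theorem inK_or (hT : TitsEndo θ) (d : F) : InK d ∨ InK (d + 1) := by
  obtain ⟨e, he | he⟩ := exists_theta_add_self d hT
  · exact Or.inl (he ▸ inK_theta_add hT e)
  · exact Or.inr (he ▸ inK_theta_add hT e)

theorem inK_of_sq {d : F} (h : InK (d ^ 2)) : InK d := by
  obtain ⟨r, hr⟩ := h
  obtain ⟨s, rfl⟩ := sq_surjective r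
  refine ⟨s, sq_injective' (F := F) ?_⟩
  linear_combination hr + s ^ 3 * (two_eq_zero : (2 : F) = 0)

theorem not_inK_add_one {d : F} (hT : TitsEndo θ) (h : InK d) : ¬ InK (d + 1) := fun h' =>
  not_inK_one hT (by
    have h3 := h.add h'
    rwa [← add_assoc, CharTwo.add_self_eq_zero, zero_add] at h3)

theorem inK_zero : InK (0 : F) := ⟨0, by simp⟩

/-- A quadratic function leaving the hyperplane. -/
theorem exists_not_inK (hT : TitsEndo θ) {c : F} (hc : c ≠ 0) :
    ∃ w : F, w ≠ 0 ∧ ¬ InK (w + c * (w ^ 2 * θ w)) := by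
  by_contra hcon
  push Not at hcon
  have h2 : (2 : F) = 0 := two_eq_zero
  have hall : ∀ w, InK (w + c * (w ^ 2 * θ w)) := fun w => by
    by_cases h : w = 0
    · rw [h]; simpa using inK_zero
    · exact hcon w h
  obtain ⟨z, hz0, hz1⟩ := hT.big
  have hne : z ^ 2 + θ z ≠ 0 := fun h => by
    have h' : θ z = z ^ 2 := (CharTwo.add_eq_zero.1 h).symm
    have h'' := hT.sq z
    rw [h', map_pow, h'] at h''
    exact hz1 (sq_eq_one (mul_left_cancel₀ (pow_ne_zero 2 hz0) (by linear_combination h'')))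
  obtain ⟨v, hv⟩ := mu_surjective hT (b := (c * (z ^ 2 + θ z))⁻¹) (inv_ne_zero (mul_ne_zero hc hne))
  refine not_inK_one hT ?_
  have h := ((hall (z * v + v)).add (hall (z * v))).add (hall v)
  convert h using 1
  have hv' : c * (z ^ 2 + θ z) * ((v : F) ^ 2 * θ v) = 1 := by
    rw [hv, mul_inv_cancel₀ (mul_ne_zero hc hne)]
  rw [map_add, map_mul]
  linear_combination -hv' - (z * v + v + c * (z ^ 2 * v ^ 2 * θ z * θ v) + c * ((v : F) ^ 2 * θ v)
    + c * (z * v ^ 2) * (θ z * θ v + θ v)) * h2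

/-- A multiplier other than one moves the hyperplane. -/
theorem exists_inK_mul (hT : TitsEndo θ) {d : F} (hd0 : d ≠ 0) (hd1 : d ≠ 1) :
    ∃ k, InK k ∧ ¬ InK (k * d) := by
  by_contra hcon
  push Not at hcon
  have surj : ∀ e : F, e ≠ 0 → (∀ k, InK k → InK (k * e)) → InK e → False := by
    intro e he hcl hek
    let f : {k : F // InK k} → {k : F // InK k} := fun k => ⟨k.1 * e, hcl k.1 k.2⟩
    have hf : Function.Injective f := fun a b h =>
      Subtype.ext (mul_right_cancel₀ he (congrArg Subtype.val h))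
    obtain ⟨⟨k, hk⟩, hke⟩ := Finite.injective_iff_surjective.1 hf ⟨e, hek⟩
    have h1 : k * e = 1 * e := by rw [one_mul]; exact congrArg Subtype.val hke
    exact not_inK_one hT (mul_right_cancel₀ he h1 ▸ hk)
  have hd1' : d + 1 ≠ 0 := fun h => hd1 (CharTwo.add_eq_zero.1 h)
  refine surj (d + 1) hd1' (fun k hk => ?_) ((inK_or hT d).resolve_left (surj d hd0 hcon))
  rw [mul_add, mul_one]
  exact (hcon k hk).add hk

/-- The trace of the matrix. -/
def trM (g : grp θ) : F := Matrix.trace ((g : Matrix.SpecialLinearGroup (Fin 4) F) : Matrix (Fin 4) (Fin 4) F)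

theorem trM_conj (g h : grp θ) : trM (g * h * g⁻¹) = trM h := by
  rw [trM, trM, Subgroup.coe_mul, Matrix.SpecialLinearGroup.coe_mul, Matrix.trace_mul_comm,
    ← Matrix.SpecialLinearGroup.coe_mul, ← Subgroup.coe_mul, inv_mul_cancel_left]

theorem trM_of_isConj {g h : grp θ} (hgh : IsConj g h) : trM h = trM g := by
  obtain ⟨c, rfl⟩ := isConj_iff.1 hgh
  exact trM_conj c g

theorem trM_uElt (hT : TitsEndo θ) (a b : F) : trM (uElt hT a b) = 0 := by
  simp [trM, uElt, uMat_coe, Matrix.trace, Fin.sum_univ_four, CharTwo.add_self_eq_zero]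

theorem trM_wElt_uElt (hT : TitsEndo θ) (a b : F) :
    trM (wElt hT * uElt hT a b) = θ a + ovF θ a b := by
  simp [trM, uElt, wElt, uMat_coe, wMat_coe, Matrix.trace, Fin.sum_univ_four, Matrix.mul_apply,
    Matrix.vecMul, dotProduct]

theorem trM_pair (hT : TitsEndo θ) (a b c d : F) :
    trM (uElt hT a b * (wElt hT * uElt hT c d * wElt hT)) =
      θ a * θ c + (b + a * θ a) * d + b * (d + c * θ c) + ovF θ a b * ovF θ c d := by
  simp [trM, uElt, wElt, uMat_coe, wMat_coe, Matrix.trace, Fin.sum_univ_four, Matrix.mul_apply,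
    Matrix.vecMul, dotProduct]
  grind [CharTwo.two_eq_zero]

/-- The representative of a real class. -/
def rElt (hT : TitsEndo θ) (ε : F) : grp θ :=
  uElt hT 0 1 * (wElt hT * uElt hT 0 ε * wElt hT)

theorem trM_rElt (hT : TitsEndo θ) (ε : F) : trM (rElt hT ε) = θ ε := by
  rw [rElt, trM_pair]
  simp [ovF, CharTwo.add_self_eq_zero]

theorem trM_involution_pair (hT : TitsEndo θ) (δ : F) :
    trM (uElt hT 0 1 * (wElt hT * uElt hT 0 δ * wElt hT)) = θ δ := trM_rElt hT δ

theorem wElt_inv (hT : TitsEndo θ) : (wElt hT)⁻¹ = wElt hT :=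
  inv_eq_of_mul_eq_one_right (wElt_mul_self hT)

theorem isConj_rElt_inv (hT : TitsEndo θ) (ε : F) : IsConj (rElt hT ε) (rElt hT ε)⁻¹ :=
  isConj_iff.2 ⟨uElt hT 0 1, by
    rw [rElt, mul_inv_rev, mul_inv_rev, mul_inv_rev, wElt_inv, uElt_self_inv, uElt_self_inv,
      ← mul_assoc (uElt hT 0 1) (uElt hT 0 1), uElt_central_sq, one_mul, mul_assoc (wElt hT)]⟩

/-- Conjugates of the translations with first parameter one. -/
theorem isConj_uElt_one (hT : TitsEndo θ) {a b : F} (ha : a ≠ 0) (d : F)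
    (h : InK (b / (a * θ a) + d)) : IsConj (uElt hT 1 d) (uElt hT a b) := by
  obtain ⟨t, rfl⟩ := hT.surj a
  obtain ⟨e, he⟩ := exists_theta_of_inK hT h
  have ht : t ≠ 0 := by rintro rfl; exact ha (map_zero θ)
  refine isConj_iff.2 ⟨tElt hT (Units.mk0 t ht) * uElt hT e 0, ?_⟩
  have h1 : uElt hT e 0 * uElt hT 1 d * (uElt hT e 0)⁻¹ = uElt hT 1 (d + θ e + e) := by
    rw [mul_inv_eq_iff_eq_mul, uElt_mul, uElt_mul, uElt_inj, map_one]
    exact ⟨by ring, by linear_combination (-e) * (two_eq_zero : (2 : F) = 0)⟩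
  rw [show tElt hT (Units.mk0 t ht) * uElt hT e 0 * uElt hT 1 d *
      (tElt hT (Units.mk0 t ht) * uElt hT e 0)⁻¹ =
      tElt hT (Units.mk0 t ht) * (uElt hT e 0 * uElt hT 1 d * (uElt hT e 0)⁻¹) *
        (tElt hT (Units.mk0 t ht))⁻¹ by group, h1, tElt_conj_uElt, uElt_inj, mul_one]
  refine ⟨rfl, ?_⟩
  rw [Units.val_mk0, show d + θ e + e = b / (θ t * θ (θ t)) by
    linear_combination he + d * (two_eq_zero : (2 : F) = 0), hT.sq]
  field_simp

theorem uElt_one_inv (hT : TitsEndo θ) : (uElt hT 1 0)⁻¹ = uElt hT 1 1 := by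
  rw [uElt_inv, uElt_inj]; simp [CharTwo.neg_eq]

theorem isConj_uElt_four (hT : TitsEndo θ) {a : F} (b : F) (ha : a ≠ 0) :
    IsConj (uElt hT 1 0) (uElt hT a b) ∨ IsConj (uElt hT 1 0)⁻¹ (uElt hT a b) := by
  rcases inK_or hT (b / (a * θ a)) with h | h
  · exact Or.inl (isConj_uElt_one hT ha 0 (by rwa [add_zero]))
  · exact Or.inr (by rw [uElt_one_inv]; exact isConj_uElt_one hT ha 1 h)

theorem isConj_uElt_central (hT : TitsEndo θ) {b : F} (hb : b ≠ 0) :
    IsConj (uElt hT 0 1) (uElt hT 0 b) := by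
  obtain ⟨t, ht⟩ := mu_surjective hT hb
  exact isConj_iff.2 ⟨tElt hT t, by rw [tElt_conj_uElt, mul_zero, mul_one, ht]⟩

section Main

variable {F : Type*} [Field F] [Fintype F] [CharP F 2] {m : ℕ}

/-- Elements that are not translations are products of two involutions in normal form. -/
theorem exists_real_form (hm : 1 ≤ m) (hF : Fintype.card F = 2 ^ (2 * m + 1)) {g : grp (theta F m)}
    (hg : g ≠ 1) (hgU : ∀ x, x⁻¹ * g * x ∉ uGrp (titsEndo_theta hm hF)) :
    ∃ ε, ε ≠ 0 ∧ IsConj (rElt (titsEndo_theta hm hF) ε) g := by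
  set hT := titsEndo_theta hm hF
  obtain ⟨C₀, hC0, -, hC1, hC2, hcov⟩ := exists_kinds hm hF
  obtain ⟨i, w, hiw⟩ := hcov g hg hgU
  obtain ⟨k, e, hC⟩ : ∃ k e, Kind (Subgroup.centralizer {g}) k e := by
    rw [hiw]
    fin_cases i
    · exact ⟨_, _, hC0.map w⟩
    · exact ⟨_, _, hC1.map w⟩
    · exact ⟨_, _, hC2.map w⟩
  have hgC : g ∈ Subgroup.centralizer {g} := Subgroup.mem_centralizer_singleton_iff.2 rfl
  obtain ⟨z, hzN, hz⟩ := exists_involution hC
  obtain ⟨y, hy⟩ := involution_normal_form hm hF hz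
  have hinv := hC.involution_inverts hzN hz hgC
  have hu1 : uElt hT 0 (1 : F) ≠ 1 := uElt_central_ne_one hT one_ne_zero
  have hu2 : orderOf (uElt hT 0 (1 : F)) = 2 := (orderOf_translation hT hu1).2 rfl
  set x0 := y⁻¹ * g * y with hx0
  have hinv0 : uElt hT 0 1 * x0 * uElt hT 0 1 = x0⁻¹ := by
    nth_rewrite 2 [← uElt_self_inv hT 1]
    rw [← hy, hx0, show y⁻¹ * z * y * (y⁻¹ * g * y) * (y⁻¹ * z * y)⁻¹ = y⁻¹ * (z * g * z⁻¹) * y by
      group, hinv]
    group
  have hx0U : ∀ a b, x0 ≠ uElt hT a b := fun a b h => hgU y (by rw [← hx0, h]; exact uElt_mem hT a b)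
  set t0 := uElt hT 0 1 * x0 with ht0
  have ht02 : orderOf t0 = 2 := by
    refine orderOf_eq_prime ?_ fun h => hx0U 0 1 ?_
    · rw [pow_two, ht0, ← mul_assoc, hinv0, inv_mul_cancel]
    · rw [eq_inv_of_mul_eq_one_right h, uElt_self_inv]
  have ht0s : t0 ∉ stabInf (theta F m) := by
    intro h
    obtain ⟨a, b, s, he⟩ := exists_of_mem_stabInf hT h
    have hsq : t0 * t0 = 1 := by rw [← pow_two, ← ht02, pow_orderOf_eq_one]
    have hs : s = 1 := by
      by_contra hs
      rw [he, borel_mul] at hsq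
      exact unit_sq_ne_one hs (torus_eq_one hT (hsq ▸ one_mem _))
    rw [hs, tElt_one, mul_one] at he
    refine hx0U (0 + a) (1 + b + theta F m 0 * a) ?_
    rw [← uElt_mul hT, ← he, ht0, ← mul_assoc, uElt_central_sq, one_mul]
  obtain ⟨y1, hy1⟩ := involution_normal_form hm hF ht02
  obtain ⟨a, b, hp⟩ : ∃ a b, y1 • (pInf : Projectivization F (Fin 4 → F)) = pt (theta F m) a b := by
    refine ((mem_ovoid _).1 (smul_mem_ovoid y1 (pInf_mem _))).resolve_left fun h => ht0s ?_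
    have hys : y1 ∈ stabInf (theta F m) := h
    have := mul_mem (mul_mem hys (uGrp_le_stabInf hT (uElt_mem hT 0 (1 : F)))) (inv_mem hys)
    rw [← hy1] at this
    simpa [mul_assoc] using this
  have hbeta : (uElt hT a b * wElt hT)⁻¹ * y1 ∈ stabInf (theta F m) := by
    rw [MulAction.mem_stabilizer_iff, mul_smul, hp, inv_smul_eq_iff, mul_smul,
      show wElt hT • (pInf : Projectivization F (Fin 4 → F)) = pt (theta F m) 0 0 from wMat_smul_pInf _,
      uElt_smul_pt_zero]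
  obtain ⟨eps, heps⟩ := mem_cGrp.1 (conj_mem_cGrp hbeta (uElt_mem_cGrp hT (1 : F)))
  refine ⟨eps, fun h => hu1 (by rw [h, uElt_zero] at heps; exact conj_eq_one_iff.1 heps),
    isConj_iff.2 ⟨y * uElt hT a b, ?_⟩⟩
  have hg' : g = y * (uElt hT 0 1 * t0) * y⁻¹ := by
    rw [ht0, ← mul_assoc (uElt hT 0 1), uElt_central_sq, one_mul, hx0]; group
  have hw := wElt_inv hT
  have hww := wElt_mul_self hT
  rw [hg', show t0 = y1 * uElt hT 0 1 * y1⁻¹ by rw [← hy1]; group, rElt, ← heps,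
    show uElt hT 0 1 * (wElt hT * ((uElt hT a b * wElt hT)⁻¹ * y1 * uElt hT 0 1 *
      ((uElt hT a b * wElt hT)⁻¹ * y1)⁻¹) * wElt hT) =
      uElt hT 0 1 * ((wElt hT * (wElt hT)⁻¹) * (uElt hT a b)⁻¹ * (y1 * uElt hT 0 1 * y1⁻¹) *
        uElt hT a b * (wElt hT * wElt hT)) by group,
    mul_inv_cancel, hww, one_mul, mul_one,
    show y * uElt hT a b * (uElt hT 0 1 * ((uElt hT a b)⁻¹ * (y1 * uElt hT 0 1 * y1⁻¹) *
      uElt hT a b)) * (y * uElt hT a b)⁻¹ =
      y * ((uElt hT a b * uElt hT 0 1) * (uElt hT a b)⁻¹ * (y1 * uElt hT 0 1 * y1⁻¹)) * y⁻¹ by group,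
    uElt_central, mul_inv_cancel_right]

/-- Elements of non-zero trace are determined up to conjugacy by the trace. -/
theorem isConj_of_trM (hm : 1 ≤ m) (hF : Fintype.card F = 2 ^ (2 * m + 1)) {g : grp (theta F m)}
    {ε : F} (hε : ε ≠ 0) (h : trM g = theta F m ε) : IsConj (rElt (titsEndo_theta hm hF) ε) g := by
  set hT := titsEndo_theta hm hF
  have h0 : trM g ≠ 0 := by rw [h]; exact (map_ne_zero _).2 hε
  have hgU : ∀ x, x⁻¹ * g * x ∉ uGrp hT := fun x hx => h0 (by
    obtain ⟨a, b, hab⟩ := hx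
    rw [show g = x * (x⁻¹ * g * x) * x⁻¹ by group, trM_conj, hab, trM_uElt])
  have hg : g ≠ 1 := fun e => hgU 1 (by rw [e]; simp [one_mem])
  obtain ⟨ε', -, hconj⟩ := exists_real_form hm hF hg hgU
  have := trM_of_isConj hconj
  rw [h, trM_rElt] at this
  rwa [(theta F m).injective this]

end Main

end CfsgLib.SuzukiClassProd
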